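/-
The similarity group of a non-degenerate symplectic form is maximal in `SL` (dimension ≥ 3).
-/
import Cfsg.Agent.Lib.Geo.Centres
set_option autoImplicit false

namespace Cfsg.Agent.Lib.Geo.SympInSL

open Cfsg Cfsg.Geo Cfsg.Agent.Lib.Geo.Basic Cfsg.Agent.Lib.Geo.Parabolic Cfsg.Agent.Lib.Geo.Centres
open scoped MatrixGroups Matrix

variable {ι : Type} [Fintype ι] [DecidableEq ι] {F : Type*} [Field F]
variable {f : (ι → F) → (ι → F) → F}

theorem sympForm_add_right (hf : IsSymplecticForm f) (v x y : ι → F) :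
    f v (x + y) = f v x + f v y := hf.bilinear.add_right v x y

theorem formVec_eq (hf : IsSymplecticForm f) (x v : ι → F) : formVec f v ⬝ᵥ x = f x v :=
  formVec_dotProduct hf.bilinear.add_left hf.bilinear.smul_left x v

theorem formVec_add (hf : IsSymplecticForm f) (x y : ι → F) :
    formVec f (x + y) = formVec f x + formVec f y := by
  ext i
  exact hf.bilinear.add_right _ _ _

theorem formVec_smul (hf : IsSymplecticForm f) (c : F) (x : ι → F) :
    formVec f (c • x) = c • formVec f x := by
  ext i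
  exact hf.bilinear.smul_right _ _ _

theorem formVec_injective (hf : IsSymplecticForm f) : Function.Injective (formVec f) := by
  intro z z' h
  by_contra hne
  have hne' : z - z' ≠ 0 := sub_ne_zero.mpr hne
  obtain ⟨x, hx⟩ := (hf.nondegenerate _ hne').1
  apply hx
  have h1 : f x z = f x z' := by
    rw [← formVec_eq hf, ← formVec_eq hf, h]
  have h2 : z - z' = z + (-1 : F) • z' := by simp [sub_eq_add_neg]
  rw [h2, hf.bilinear.add_right, hf.bilinear.smul_right, h1]
  ring

theorem formVec_surjective [Finite F] (hf : IsSymplecticForm f) :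
    Function.Surjective (formVec f) :=
  Finite.injective_iff_surjective.mp (formVec_injective hf)

/-- The symplectic transvection `x ↦ x + f(x, v) a v`. -/
noncomputable def sympT (hf : IsSymplecticForm f) (v : ι → F) (a : F) : GL ι F :=
  transv (a • v) (formVec f v)
    (by rw [formVec_eq hf, hf.bilinear.smul_left, hf.alternating, mul_zero])

theorem sympT_mulVec (hf : IsSymplecticForm f) (v : ι → F) (a : F) (x : ι → F) :
    ((sympT hf v a : GL ι F) : Matrix ι ι F) *ᵥ x = x + f x v • a • v := by
  rw [sympT, transv_mulVec, formVec_eq hf]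

theorem sympT_similarity (hf : IsSymplecticForm f) (v : ι → F) (a : F) (x y : ι → F) :
    f (((sympT hf v a : GL ι F) : Matrix ι ι F) *ᵥ x)
      (((sympT hf v a : GL ι F) : Matrix ι ι F) *ᵥ y) = f x y := by
  rw [sympT_mulVec, sympT_mulVec]
  have hb := hf.bilinear
  rw [hb.add_left, hb.add_right, hb.add_right, hb.smul_left, hb.smul_left, hb.smul_right,
    hb.smul_right, hb.smul_left, hb.smul_left, hb.smul_right, hb.smul_right, hf.alternating,
    hf.skew v y]
  ring

theorem sympT_mem (hf : IsSymplecticForm f) (v : ι → F) (a : F) :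
    sympT hf v a ∈ similarityGroup f ⊓ specialLinear ι F :=
  ⟨⟨1, fun x y => by rw [sympT_similarity hf, Units.val_one, one_mul]⟩,
    transv_mem_specialLinear _ _ _⟩

/-- The group `Sim(f) ∩ SL` acts irreducibly. -/
theorem irreducible (hf : IsSymplecticForm f) :
    ActsIrreducibly (matrixSet (similarityGroup f ⊓ specialLinear ι F)) := by
  intro W hW
  by_cases hW0 : W = ⊥
  · exact Or.inl hW0
  right
  obtain ⟨w, hw, hw0⟩ := Submodule.exists_mem_ne_zero_of_ne_bot hW0
  have key : ∀ x, f w x ≠ 0 → x ∈ W := by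
    intro x hx
    have h1 := hW _ ⟨sympT hf x 1, sympT_mem hf x 1, rfl⟩ ⟨w, hw, rfl⟩
    rw [Matrix.toLin'_apply, sympT_mulVec, one_smul] at h1
    have h2 : f w x • x ∈ W := by
      have := W.sub_mem h1 hw
      rwa [add_sub_cancel_left] at this
    have := W.smul_mem (f w x)⁻¹ h2
    rwa [smul_smul, inv_mul_cancel₀ hx, one_smul] at this
  obtain ⟨x₀, hx₀⟩ := (hf.nondegenerate w hw0).2
  rw [eq_top_iff]
  intro y _
  by_cases hy : f w y = 0
  · have h1 : y + x₀ ∈ W := key _ (by rw [hf.bilinear.add_right, hy, zero_add]; exact hx₀)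
    have h2 := W.sub_mem h1 (key x₀ hx₀)
    rwa [add_sub_cancel_right] at h2
  · exact key y hy

/-- A transvection in `Sim(f)` with non-zero centre `u` has axis containing `u^⊥`. -/
theorem transv_similarity_axis (hf : IsSymplecticForm f) (u ψ : ι → F) (h : ψ ⬝ᵥ u = 0) (hu : u ≠ 0)
    (ht : transv u ψ h ∈ similarityGroup f) (y : ι → F) (hy : f y u = 0) : ψ ⬝ᵥ y = 0 := by
  obtain ⟨c, hc⟩ := ht
  obtain ⟨x₁, hx₁⟩ := (hf.nondegenerate u hu).1
  have hb := hf.bilinear
  have h1 := hc x₁ u
  rw [transv_mulVec, transv_mulVec, h, zero_smul, add_zero, hb.add_left, hb.smul_left,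
    hf.alternating, mul_zero, add_zero] at h1
  have hc1 : (c : F) = 1 := by
    have : ((c : F) - 1) * f x₁ u = 0 := by rw [sub_mul, ← h1]; ring
    rcases mul_eq_zero.mp this with h2 | h2
    · exact sub_eq_zero.mp h2
    · exact absurd h2 hx₁
  have h2 := hc y x₁
  rw [transv_mulVec, transv_mulVec, hc1, one_mul, hb.add_left, hb.add_right, hb.add_right,
    hb.smul_left, hb.smul_left, hb.smul_right, hb.smul_right, hf.alternating, hy] at h2
  have h3 : (ψ ⬝ᵥ y) * f u x₁ = 0 := by linear_combination h2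
  rcases mul_eq_zero.mp h3 with h4 | h4
  · exact h4
  · exfalso
    apply hx₁
    rw [hf.skew, h4, neg_zero]

/-- Existence of a transvection outside `Sim(f)`. -/
theorem similarity_inf_lt (hf : IsSymplecticForm f) (hι : 3 ≤ Fintype.card ι) :
    similarityGroup f ⊓ specialLinear ι F < specialLinear ι F := by
  refine lt_of_le_of_ne inf_le_right ?_
  intro he
  -- a non-zero vector
  have hne : Nonempty ι := by
    apply Fintype.card_pos_iff.mp
    omega
  obtain ⟨i₀⟩ := hne
  let u : ι → F := Pi.single i₀ 1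
  have hu : u ≠ 0 := by
    intro h
    have := congrFun h i₀
    simp [u] at this
  -- the kernel of `f(·, u)` is not contained in the line of `u`
  let K : Submodule F (ι → F) := LinearMap.ker (dualOfVec (formVec f u))
  have hK : ¬ K ≤ Submodule.span F {u} := by
    intro hle
    have h1 := Submodule.finrank_mono hle
    have h2 : Module.finrank F (Submodule.span F {u}) ≤ 1 := (finrank_span_singleton hu).le
    have h3 := LinearMap.finrank_range_add_finrank_ker (dualOfVec (formVec f u))
    have h4 : Module.finrank F (LinearMap.range (dualOfVec (formVec f u))) ≤ 1 := by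
      have := Submodule.finrank_le (LinearMap.range (dualOfVec (formVec f u)))
      simpa using this
    have h5 : Module.finrank F (ι → F) = Fintype.card ι := by simp
    have h6 : Module.finrank F K ≤ 1 := h1.trans h2
    change Module.finrank F (LinearMap.range (dualOfVec (formVec f u))) + Module.finrank F K = _ at h3
    omega
  obtain ⟨w, hwK, hwu⟩ := SetLike.not_le_iff_exists.mp hK
  obtain ⟨φ, hφ1, hφ2⟩ := exists_dotProduct_eq_one_of_notMem _ _ hwu
  have h0 : φ ⬝ᵥ u = 0 := hφ1 u (Submodule.mem_span_singleton_self u)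
  have hmem : transv u φ h0 ∈ similarityGroup f ⊓ specialLinear ι F := by
    rw [he]
    exact transv_mem_specialLinear _ _ _
  have hfw : f w u = 0 := by
    have : dualOfVec (formVec f u) w = 0 := hwK
    rwa [dualOfVec_apply, formVec_eq hf] at this
  have := transv_similarity_axis hf u φ h0 hu hmem.1 w hfw
  rw [hφ2] at this
  exact one_ne_zero this

/-- A matrix preserving orthogonality (in one direction) is a similarity. -/
theorem mem_similarityGroup_of_orthogonality (hf : IsSymplecticForm f) (g : GL ι F)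
    (h : ∀ x v, f ((g : Matrix ι ι F) *ᵥ x) ((g : Matrix ι ι F) *ᵥ v) = 0 → f x v = 0) :
    g ∈ similarityGroup f := by
  have hb := hf.bilinear
  -- the form `f'`
  let f' : (ι → F) → (ι → F) → F := fun x v => f ((g : Matrix ι ι F) *ᵥ x) ((g : Matrix ι ι F) *ᵥ v)
  have hf'nd : ∀ v, v ≠ 0 → ∃ x, f' x v ≠ 0 := by
    intro v hv
    have hgv : (g : Matrix ι ι F) *ᵥ v ≠ 0 := by
      intro h0
      apply hv
      have := inv_mulVec_mulVec g v
      rw [h0, Matrix.mulVec_zero] at this
      exact this.symm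
    obtain ⟨x, hx⟩ := (hf.nondegenerate _ hgv).1
    refine ⟨((g⁻¹ : GL ι F) : Matrix ι ι F) *ᵥ x, ?_⟩
    simpa [f', mulVec_inv_mulVec] using hx
  let α : (ι → F) → (ι → F) →ₗ[F] F := fun v =>
    { toFun := fun x => f' x v
      map_add' := fun a b => by simp only [f', Matrix.mulVec_add, hb.add_left]
      map_smul' := fun c a => by simp only [f', Matrix.mulVec_smul, hb.smul_left, smul_eq_mul, RingHom.id_apply] }
  let β : (ι → F) → (ι → F) →ₗ[F] F := fun v =>
    { toFun := fun x => f x v
      map_add' := fun a b => hb.add_left a b v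
      map_smul' := fun c a => hb.smul_left c a v }
  have hex : ∀ v, ∃ c : F, ∀ x, f x v = c * f' x v := fun v =>
    exists_scalar_of_ker_le (α v) (β v) (fun x hx => h x v hx)
  choose lam hlam using hex
  by_cases hV : ∃ v₀ : ι → F, v₀ ≠ 0
  · obtain ⟨v₀, hv₀⟩ := hV
    have hadd' : ∀ x v w, f' x (v + w) = f' x v + f' x w := by
      intro x v w
      simp only [f', Matrix.mulVec_add, hb.add_right]
    have hsmul' : ∀ (x : ι → F) (c : F) v, f' x (c • v) = c * f' x v := by
      intro x c v
      simp only [f', Matrix.mulVec_smul, hb.smul_right]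
    have hconst : ∀ v, v ≠ 0 → lam v = lam v₀ := by
      intro v hv
      by_cases hdep : v ∈ Submodule.span F {v₀}
      · obtain ⟨a, rfl⟩ := Submodule.mem_span_singleton.mp hdep
        obtain ⟨x, hx⟩ := hf'nd _ hv
        have h1 := hlam (a • v₀) x
        rw [hb.smul_right, hlam v₀ x] at h1
        rw [hsmul'] at hx h1
        have ha : a ≠ 0 := left_ne_zero_of_mul hx
        have hx' : f' x v₀ ≠ 0 := right_ne_zero_of_mul hx
        have h2 : (lam (a • v₀) - lam v₀) * (a * f' x v₀) = 0 := by linear_combination -h1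
        rcases mul_eq_zero.mp h2 with h3 | h3
        · exact sub_eq_zero.mp h3
        · exact absurd h3 hx
      · have h1 : ∀ x, f' x ((lam v₀ - lam (v₀ + v)) • v₀ + (lam v - lam (v₀ + v)) • v) = 0 := by
          intro x
          rw [hadd', hsmul', hsmul']
          have h2 := hlam (v₀ + v) x
          rw [hb.add_right, hlam v₀ x, hlam v x, hadd'] at h2
          linear_combination h2
        have h2 : (lam v₀ - lam (v₀ + v)) • v₀ + (lam v - lam (v₀ + v)) • v = 0 := by
          by_contra hne
          obtain ⟨x, hx⟩ := hf'nd _ hne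
          exact hx (h1 x)
        have h3 : lam v - lam (v₀ + v) = 0 := by
          by_contra hne
          apply hdep
          rw [Submodule.mem_span_singleton]
          refine ⟨-(lam v - lam (v₀ + v))⁻¹ * (lam v₀ - lam (v₀ + v)), ?_⟩
          have h4 : (lam v - lam (v₀ + v)) • v = -((lam v₀ - lam (v₀ + v)) • v₀) :=
            eq_neg_of_add_eq_zero_right h2
          calc (-(lam v - lam (v₀ + v))⁻¹ * (lam v₀ - lam (v₀ + v))) • v₀
              = (lam v - lam (v₀ + v))⁻¹ • (-((lam v₀ - lam (v₀ + v)) • v₀)) := by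
                rw [smul_neg, smul_smul, ← neg_smul, neg_mul]
            _ = v := by rw [← h4, smul_smul, inv_mul_cancel₀ hne, one_smul]
        have h4 : (lam v₀ - lam (v₀ + v)) • v₀ = 0 := by
          rw [h3, zero_smul, add_zero] at h2
          exact h2
        have h5 : lam v₀ - lam (v₀ + v) = 0 := by
          rcases smul_eq_zero.mp h4 with h6 | h6
          · exact h6
          · exact absurd h6 hv₀
        rw [sub_eq_zero] at h3 h5
        rw [h3, h5]
    have hlam0 : lam v₀ ≠ 0 := by
      intro h0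
      obtain ⟨x, hx⟩ := (hf.nondegenerate v₀ hv₀).1
      apply hx
      rw [hlam v₀ x, h0, zero_mul]
    refine ⟨Units.mk0 (lam v₀)⁻¹ (inv_ne_zero hlam0), fun u v => ?_⟩
    rw [Units.val_mk0]
    by_cases hv : v = 0
    · subst hv
      have h0 : ∀ a : ι → F, f a 0 = 0 := by
        intro a
        have := hb.smul_right 0 a 0
        simpa using this
      rw [Matrix.mulVec_zero, h0, h0, mul_zero]
    · have := hlam v u
      rw [hconst v hv] at this
      rw [this]
      change f' u v = _
      field_simp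
  · push Not at hV
    refine ⟨1, fun u v => ?_⟩
    rw [hV ((g : Matrix ι ι F) *ᵥ u), hV u, hV ((g : Matrix ι ι F) *ᵥ v), hV v]
    simp

/-- From one transvection with `ψ` non-zero on `u^⊥` to all transvections with centre `u`. -/
theorem isCentre_of_transv_mem [Finite F] (hf : IsSymplecticForm f) {M : Subgroup (GL ι F)}
    (hM : similarityGroup f ⊓ specialLinear ι F ≤ M) (u ψ : ι → F) (h : ψ ⬝ᵥ u = 0)
    (ht : transv u ψ h ∈ M) (y : ι → F) (hy : f y u = 0) (hψy : ψ ⬝ᵥ y ≠ 0) : IsCentre M u := by
  have hb := hf.bilinear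
  have key : ∀ (z : ι → F) (hz : formVec f z ⬝ᵥ u = 0), ψ ⬝ᵥ z ≠ 0 →
      transv u (formVec f z) hz ∈ M := by
    intro z hz hψz
    have hm : sympT hf z (ψ ⬝ᵥ z)⁻¹ ∈ M := hM (sympT_mem hf z _)
    have h2 : formVec f z ⬝ᵥ ((ψ ⬝ᵥ z)⁻¹ • z) = 0 := by
      rw [formVec_eq hf, hb.smul_left, hf.alternating, mul_zero]
    have hc := commutator_transv u ψ ((ψ ⬝ᵥ z)⁻¹ • z) (formVec f z) h h2 hz
    have hone : (ψ ⬝ᵥ ((ψ ⬝ᵥ z)⁻¹ • z)) • u = u := by
      rw [dotProduct_smul, smul_eq_mul, inv_mul_cancel₀ hψz, one_smul]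
    have h3 : transv ((ψ ⬝ᵥ ((ψ ⬝ᵥ z)⁻¹ • z)) • u) (formVec f z)
        (by rw [dotProduct_smul, hz, smul_zero]) = transv u (formVec f z) hz := by
      ext1
      simp only [coe_transv]
      rw [hone]
    rw [← h3, ← hc]
    exact M.mul_mem (M.mul_mem (M.mul_mem ht hm) (M.inv_mem ht)) (M.inv_mem hm)
  intro φ hφ
  obtain ⟨z, rfl⟩ := formVec_surjective hf φ
  by_cases hz : ψ ⬝ᵥ z = 0
  · have h1 : formVec f (z + y) ⬝ᵥ u = 0 := by
      rw [formVec_add hf, add_dotProduct, hφ, zero_add, formVec_eq hf, hf.skew, hy, neg_zero]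
    have h2 : formVec f ((-1 : F) • y) ⬝ᵥ u = 0 := by
      rw [formVec_smul hf, smul_dotProduct, formVec_eq hf, hf.skew, hy, neg_zero, smul_zero]
    have h3 := key (z + y) h1 (by rw [dotProduct_add, hz, zero_add]; exact hψy)
    have h4 := key ((-1 : F) • y) h2 (by
      rw [dotProduct_smul]
      simpa using hψy)
    have h5 := M.mul_mem h3 h4
    rw [transv_mul_same_left] at h5
    convert h5 using 2
    rw [formVec_add hf, formVec_smul hf]
    simp
  · exact key z hφ hz

/-- **The similarity group of a non-degenerate symplectic form is maximal in `SL`.** -/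
theorem similarity_isMaximalIn [Finite F] (hf : IsSymplecticForm f) (hι : 3 ≤ Fintype.card ι) :
    IsMaximalIn (specialLinear ι F) (similarityGroup f ⊓ specialLinear ι F) := by
  refine isMaximalIn_of_forall (similarity_inf_lt hf hι) ?_
  intro M hHM hMK g hgM hgH
  have hg : g ∉ similarityGroup f := fun hs => hgH ⟨hs, hMK hgM⟩
  obtain ⟨x, v, h0, hne⟩ : ∃ x v, f ((g : Matrix ι ι F) *ᵥ x) ((g : Matrix ι ι F) *ᵥ v) = 0 ∧
      f x v ≠ 0 := by
    by_contra hcon
    push Not at hcon
    exact hg (mem_similarityGroup_of_orthogonality hf g hcon)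
  have hv : v ≠ 0 := by
    rintro rfl
    apply hne
    have := hf.bilinear.smul_right 0 x 0
    simpa using this
  have hu : (g : Matrix ι ι F) *ᵥ v ≠ 0 := by
    intro h1
    apply hv
    have := inv_mulVec_mulVec g v
    rw [h1, Matrix.mulVec_zero] at this
    exact this.symm
  -- the conjugate of a symplectic transvection
  have hT : sympT hf v 1 ∈ M := hHM (sympT_mem hf v 1)
  have hconj : g * sympT hf v 1 * g⁻¹ ∈ M := M.mul_mem (M.mul_mem hgM hT) (M.inv_mem hgM)
  rw [sympT, conj_transv'] at hconj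
  have hone : (g : Matrix ι ι F) *ᵥ ((1 : F) • v) = (g : Matrix ι ι F) *ᵥ v := by rw [one_smul]
  set ψ := formVec f v ᵥ* ((g⁻¹ : GL ι F) : Matrix ι ι F) with hψ
  have hψu : ψ ⬝ᵥ ((g : Matrix ι ι F) *ᵥ v) = 0 := by
    rw [hψ, dotProduct_conj_eq, formVec_eq hf, hf.alternating]
  have ht : transv ((g : Matrix ι ι F) *ᵥ v) ψ hψu ∈ M := by
    convert hconj using 2
    rw [one_smul]
  have hψy : ψ ⬝ᵥ ((g : Matrix ι ι F) *ᵥ x) = f x v := by
    rw [hψ, dotProduct_conj_eq, formVec_eq hf]
  have hC := isCentre_of_transv_mem hf hHM _ ψ hψu ht _ h0 (by rw [hψy]; exact hne)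
  exact specialLinear_le_of_isCentre_of_irreducible hHM (irreducible hf) hu hC

end Cfsg.Agent.Lib.Geo.SympInSL
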