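/-
Symplectic groups: the polar structure of an alternating form, the set of transvection centres of a subgroup, and
the basic moves with it.
-/
import Cfsg.Agent.Lib.Geo.QForm
import Cfsg.Agent.Lib.Geo.SympInSL
import Cfsg.Agent.Lib.Classical.SympForm
set_option autoImplicit false

namespace Cfsg.Agent.Lib.Geo.SpBase

open Cfsg Cfsg.Geo Cfsg.Agent.Lib.Geo.Basic Cfsg.Agent.Lib.Geo.Parabolic Cfsg.Agent.Lib.Geo.Centres
open Cfsg.Agent.Lib.Geo.Polar Cfsg.Agent.Lib.Geo.QForm Cfsg.Agent.Lib.Geo.SympInSL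
open scoped MatrixGroups Matrix

variable {ι : Type} [Fintype ι] [DecidableEq ι] {F : Type*} [Field F]
variable {f : (ι → F) → (ι → F) → F}

/-- The polar space of a non-degenerate alternating form: every vector is singular. -/
theorem isPolar (hf : IsSymplecticForm f) : IsPolar (RingEquiv.refl F) f Set.univ where
  add_left := hf.bilinear.add_left
  smul_left := hf.bilinear.smul_left
  add_right := hf.bilinear.add_right
  smul_right := hf.bilinear.smul_right
  refl := fun x y h => by rw [hf.skew, h, neg_zero]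
  nondeg := fun y hy => (hf.nondegenerate y hy).1
  B_zero := Set.mem_univ _
  B_smul := fun _ _ _ => Set.mem_univ _
  B_add := fun _ _ _ _ _ => Set.mem_univ _
  B_iso := fun p _ => hf.alternating p
  B_shift := fun _ _ _ _ => ⟨0, Set.mem_univ _⟩
  B_ex := fun D hD => by
    have h1 : D ≠ ⊥ := by
      rintro rfl
      simp at hD
    obtain ⟨p, hp, hp0⟩ := Submodule.exists_mem_ne_zero_of_ne_bot h1
    exact ⟨p, hp, hp0, Set.mem_univ _⟩

/-- The data of a group of isometries of `f` generated by transvections. -/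
structure IsSpGroup (hf : IsSymplecticForm f) (I : Subgroup (GL ι F)) : Prop where
  mem_iff : ∀ g : GL ι F, g ∈ I ↔ ∀ u v, f ((g : Matrix ι ι F) *ᵥ u) ((g : Matrix ι ι F) *ᵥ v) = f u v
  gen : ∀ M : Subgroup (GL ι F), (∀ v a, sympT hf v a ∈ M) → I ≤ M

/-- The set of centres of symplectic transvections of `M`. -/
def centres (hf : IsSymplecticForm f) (M : Subgroup (GL ι F)) : Set (ι → F) :=
  {v | ∀ a, sympT hf v a ∈ M}

theorem mem_centres (hf : IsSymplecticForm f) (M : Subgroup (GL ι F)) (v : ι → F) :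
    v ∈ centres hf M ↔ ∀ a, sympT hf v a ∈ M := Iff.rfl

theorem form_inv (hf : IsSymplecticForm f) (g : GL ι F)
    (hg : ∀ u v, f ((g : Matrix ι ι F) *ᵥ u) ((g : Matrix ι ι F) *ᵥ v) = f u v) (x v : ι → F) :
    f (((g⁻¹ : GL ι F) : Matrix ι ι F) *ᵥ x) v = f x ((g : Matrix ι ι F) *ᵥ v) := by
  rw [← hg, mulVec_inv_mulVec]

theorem form_inv' (hf : IsSymplecticForm f) (g : GL ι F)
    (hg : ∀ u v, f ((g : Matrix ι ι F) *ᵥ u) ((g : Matrix ι ι F) *ᵥ v) = f u v) (x v : ι → F) :
    f x (((g⁻¹ : GL ι F) : Matrix ι ι F) *ᵥ v) = f ((g : Matrix ι ι F) *ᵥ x) v := by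
  rw [← hg, mulVec_inv_mulVec]

theorem inv_preserves (g : GL ι F)
    (hg : ∀ u v, f ((g : Matrix ι ι F) *ᵥ u) ((g : Matrix ι ι F) *ᵥ v) = f u v) (u v : ι → F) :
    f (((g⁻¹ : GL ι F) : Matrix ι ι F) *ᵥ u) (((g⁻¹ : GL ι F) : Matrix ι ι F) *ᵥ v) = f u v := by
  rw [← hg, mulVec_inv_mulVec, mulVec_inv_mulVec]

/-- Conjugating a transvection. -/
theorem conj_sympT (hf : IsSymplecticForm f) (g : GL ι F)
    (hg : ∀ u v, f ((g : Matrix ι ι F) *ᵥ u) ((g : Matrix ι ι F) *ᵥ v) = f u v) (v : ι → F) (a : F) :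
    g * sympT hf v a * g⁻¹ = sympT hf ((g : Matrix ι ι F) *ᵥ v) a := by
  apply gl_ext_mulVec
  intro x
  simp only [Units.val_mul, ← Matrix.mulVec_mulVec]
  rw [sympT_mulVec, sympT_mulVec, Matrix.mulVec_add, mulVec_inv_mulVec, Matrix.mulVec_smul,
    Matrix.mulVec_smul, form_inv hf g hg]

theorem centres_mulVec (hf : IsSymplecticForm f) {M : Subgroup (GL ι F)} {v : ι → F}
    (hv : v ∈ centres hf M) {g : GL ι F} (hgM : g ∈ M)
    (hg : ∀ u v, f ((g : Matrix ι ι F) *ᵥ u) ((g : Matrix ι ι F) *ᵥ v) = f u v) :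
    (g : Matrix ι ι F) *ᵥ v ∈ centres hf M := by
  intro a
  rw [← conj_sympT hf g hg]
  exact M.mul_mem (M.mul_mem hgM (hv a)) (M.inv_mem hgM)

theorem sympT_smul (hf : IsSymplecticForm f) (c : F) (v : ι → F) (a : F) :
    sympT hf (c • v) a = sympT hf v (c * c * a) := by
  apply gl_ext_mulVec
  intro x
  rw [sympT_mulVec, sympT_mulVec, hf.bilinear.smul_right, smul_smul, smul_smul, smul_smul]
  congr 2
  ring

theorem centres_smul (hf : IsSymplecticForm f) {M : Subgroup (GL ι F)} {v : ι → F}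
    (hv : v ∈ centres hf M) (c : F) : c • v ∈ centres hf M := by
  intro a
  rw [sympT_smul]
  exact hv _

theorem sympT_preserves (hf : IsSymplecticForm f) (v : ι → F) (a : F) (x y : ι → F) :
    f (((sympT hf v a : GL ι F) : Matrix ι ι F) *ᵥ x)
      (((sympT hf v a : GL ι F) : Matrix ι ι F) *ᵥ y) = f x y := sympT_similarity hf v a x y

/-- The plane rule: two non-orthogonal centres span a plane of centres. -/
theorem centres_add_smul (hf : IsSymplecticForm f) {M : Subgroup (GL ι F)} {v w : ι → F}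
    (hv : v ∈ centres hf M) (hw : w ∈ centres hf M) (hvw : f w v ≠ 0) (c : F) :
    w + c • v ∈ centres hf M := by
  have h1 := centres_mulVec hf hw (hv (c / f w v)) (sympT_preserves hf v _)
  rw [sympT_mulVec, smul_smul] at h1
  have h2 : f w v * (c / f w v) = c := by field_simp
  rwa [h2] at h1

theorem centres_add (hf : IsSymplecticForm f) {M : Subgroup (GL ι F)} {v w : ι → F}
    (hv : v ∈ centres hf M) (hw : w ∈ centres hf M) (hvw : f w v ≠ 0) :
    w + v ∈ centres hf M := by
  have := centres_add_smul hf hv hw hvw 1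
  rwa [one_smul] at this

theorem centres_zero (hf : IsSymplecticForm f) (M : Subgroup (GL ι F)) : (0 : ι → F) ∈ centres hf M := by
  intro a
  have : sympT hf (0 : ι → F) a = 1 := by
    apply gl_ext_mulVec
    intro x
    rw [sympT_mulVec]
    simp
  rw [this]
  exact M.one_mem

/-- A common non-vanishing vector for two linear forms. -/
theorem exists_common (hf : IsSymplecticForm f) (E : Submodule F (ι → F)) (a b : ι → F)
    (h₁ : ∃ e ∈ E, f a e ≠ 0) (h₂ : ∃ e ∈ E, f b e ≠ 0) : ∃ e ∈ E, f a e ≠ 0 ∧ f b e ≠ 0 := by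
  obtain ⟨e₁, he₁, h1⟩ := h₁
  obtain ⟨e₂, he₂, h2⟩ := h₂
  by_cases h3 : f b e₁ = 0
  · by_cases h4 : f a e₂ = 0
    · refine ⟨e₁ + e₂, E.add_mem he₁ he₂, ?_, ?_⟩
      · rwa [hf.bilinear.add_right, h4, add_zero]
      · rwa [hf.bilinear.add_right, h3, zero_add]
    · exact ⟨e₂, he₂, h4, h2⟩
  · exact ⟨e₁, he₁, h1, h3⟩

/-- The orthogonal complement of a subspace. -/
def orth (hf : IsSymplecticForm f) (W : Submodule F (ι → F)) : Submodule F (ι → F) where
  carrier := {x | ∀ w ∈ W, f w x = 0}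
  add_mem' {a b} ha hb w hw := by rw [hf.bilinear.add_right, ha w hw, hb w hw, add_zero]
  zero_mem' w _ := by
    have := hf.bilinear.smul_right 0 w 0
    simpa using this
  smul_mem' c x hx w hw := by rw [hf.bilinear.smul_right, hx w hw, mul_zero]

theorem mem_orth (hf : IsSymplecticForm f) (W : Submodule F (ι → F)) (x : ι → F) :
    x ∈ orth hf W ↔ ∀ w ∈ W, f w x = 0 := Iff.rfl

theorem form_comm_ne (hf : IsSymplecticForm f) {x y : ι → F} (h : f x y ≠ 0) : f y x ≠ 0 := by
  rw [hf.skew]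
  exact neg_ne_zero.mpr h

theorem form_comm_eq (hf : IsSymplecticForm f) {x y : ι → F} (h : f x y = 0) : f y x = 0 := by
  rw [hf.skew, h, neg_zero]

/-- Separation by the form: outside `W` there is a witness in the orthogonal complement. -/
theorem exists_orth [Finite F] (hf : IsSymplecticForm f) (W : Submodule F (ι → F)) (x : ι → F)
    (hx : x ∉ W) : ∃ z ∈ orth hf W, f x z = 1 := by
  obtain ⟨φ, hφ, hφx⟩ := exists_dotProduct_eq_one_of_notMem W x hx
  obtain ⟨z, hz⟩ := formVec_surjective hf φ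
  refine ⟨z, ?_, ?_⟩
  · intro w hw
    rw [← formVec_eq hf, hz]
    exact hφ w hw
  · rw [← formVec_eq hf, hz, hφx]

/-- The Eichler-type isometry `x ↦ x + f(x, p) q + f(x, q) p` for `f(p, q) = 0`. -/
noncomputable def sE (hf : IsSymplecticForm f) (p q : ι → F) (h : f p q = 0) : GL ι F :=
  transv q (formVec f p) (by rw [formVec_eq hf, form_comm_eq hf h]) *
    transv p (formVec f q) (by rw [formVec_eq hf, h])

theorem sE_mulVec (hf : IsSymplecticForm f) (p q : ι → F) (h : f p q = 0) (x : ι → F) :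
    ((sE hf p q h : GL ι F) : Matrix ι ι F) *ᵥ x = x + f x p • q + f x q • p := by
  rw [sE, Units.val_mul, ← Matrix.mulVec_mulVec, transv_mulVec, transv_mulVec, formVec_eq hf,
    formVec_eq hf, hf.bilinear.add_left, hf.bilinear.smul_left, hf.alternating, mul_zero, add_zero]
  abel

theorem sE_preserves (hf : IsSymplecticForm f) (p q : ι → F) (h : f p q = 0) (x y : ι → F) :
    f (((sE hf p q h : GL ι F) : Matrix ι ι F) *ᵥ x) (((sE hf p q h : GL ι F) : Matrix ι ι F) *ᵥ y) =
      f x y := by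
  rw [sE_mulVec, sE_mulVec]
  have hb := hf.bilinear
  have h' := form_comm_eq hf h
  simp only [hb.add_left, hb.add_right, hb.smul_left, hb.smul_right, hf.alternating, h, h']
  rw [hf.skew q y, hf.skew p y]
  ring

/-- `spGL` is an `IsSpGroup`. -/
theorem isSymplecticForm_sympForm (m : ℕ) : IsSymplecticForm (sympForm m F) where
  bilinear :=
    { add_left := fun x y v => by simp [sympForm, add_dotProduct]
      smul_left := fun c x v => by simp [sympForm, smul_dotProduct]
      add_right := fun v x y => by simp [sympForm, Matrix.mulVec_add, dotProduct_add]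
      smul_right := fun c v x => by simp [sympForm, Matrix.mulVec_smul, dotProduct_smul] }
  skew := fun v w => by
    have := Cfsg.Agent.Lib.Classical.Alt.alt_neg
      (Cfsg.Agent.Lib.Classical.SympForm.sympBilin_isAlt (m := m) (F := F)) w v
    simpa using this
  alternating := fun v => Cfsg.Agent.Lib.Classical.SympForm.sympBilin_isAlt v
  nondegenerate := fun y hy => by
    have hs := fun u v => (show sympForm m F u v = - sympForm m F v u by
      have := Cfsg.Agent.Lib.Classical.Alt.alt_neg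
        (Cfsg.Agent.Lib.Classical.SympForm.sympBilin_isAlt (m := m) (F := F)) v u
      simpa using this)
    have h2 : ∃ x, sympForm m F y x ≠ 0 := by
      by_contra h
      push Not at h
      exact hy (Cfsg.Agent.Lib.Classical.SympForm.sympBilin_nondegenerate.1 y h)
    obtain ⟨x, hx⟩ := h2
    refine ⟨⟨x, ?_⟩, ⟨x, hx⟩⟩
    rw [hs]
    exact neg_ne_zero.mpr hx

theorem coe_sympT_eq (m : ℕ) (v : Fin m ⊕ Fin m → F) (a : F) :
    ((sympT (isSymplecticForm_sympForm m) v a : GL (Fin m ⊕ Fin m) F) :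
      Matrix (Fin m ⊕ Fin m) (Fin m ⊕ Fin m) F) = sympTransvection m v a := by
  apply Matrix.ext_of_mulVec_single
  intro l
  rw [sympT_mulVec, Cfsg.Agent.Lib.Classical.SympForm.sympTransvection_mulVec, smul_smul, mul_comm]

theorem isSpGroup_spGL (m : ℕ) : IsSpGroup (isSymplecticForm_sympForm (F := F) m) (spGL m F) where
  mem_iff := fun g => mem_spGL_iff m g
  gen := by
    intro M hM g hg
    have hA : (g : Matrix (Fin m ⊕ Fin m) (Fin m ⊕ Fin m) F) ∈ Matrix.symplecticGroup (Fin m) F := by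
      rw [Cfsg.Agent.Lib.Classical.SympForm.mem_symplecticGroup_iff]
      exact hg
    have hmem : (⟨_, hA⟩ : Matrix.symplecticGroup (Fin m) F) ∈
        Subgroup.closure (Cfsg.Agent.Lib.Classical.SympForm.transvectionSet m F) := by
      rw [Cfsg.Agent.Lib.Classical.SympForm.closure_transvectionSet]
      trivial
    have key : ∀ A ∈ Subgroup.closure (Cfsg.Agent.Lib.Classical.SympForm.transvectionSet m F),
        ∃ h ∈ M, (h : Matrix (Fin m ⊕ Fin m) (Fin m ⊕ Fin m) F) = A.1 := by
      intro A hA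
      induction hA using Subgroup.closure_induction with
      | mem x hx =>
        obtain ⟨w, c, hw⟩ := hx
        exact ⟨_, hM w c, by rw [coe_sympT_eq, hw]⟩
      | one => exact ⟨1, M.one_mem, rfl⟩
      | mul x y _ _ hx hy =>
        obtain ⟨a, haM, ha⟩ := hx
        obtain ⟨b, hbM, hb⟩ := hy
        exact ⟨a * b, M.mul_mem haM hbM, by rw [Units.val_mul, ha, hb]; rfl⟩
      | inv x _ hx =>
        obtain ⟨a, haM, ha⟩ := hx
        refine ⟨a⁻¹, M.inv_mem haM, ?_⟩
        have h1 : (x⁻¹ : Matrix.symplecticGroup (Fin m) F).1 * x.1 = 1 := by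
          have := congrArg Subtype.val (inv_mul_cancel x)
          exact this
        have h3 : (a : Matrix (Fin m ⊕ Fin m) (Fin m ⊕ Fin m) F) *
            ((a⁻¹ : GL (Fin m ⊕ Fin m) F) : Matrix (Fin m ⊕ Fin m) (Fin m ⊕ Fin m) F) = 1 := by
          rw [← Units.val_mul, mul_inv_cancel, Units.val_one]
        rw [ha] at h3
        calc ((a⁻¹ : GL (Fin m ⊕ Fin m) F) : Matrix (Fin m ⊕ Fin m) (Fin m ⊕ Fin m) F) =
              (x⁻¹ : Matrix.symplecticGroup (Fin m) F).1 * x.1 *
                ((a⁻¹ : GL (Fin m ⊕ Fin m) F) : Matrix (Fin m ⊕ Fin m) (Fin m ⊕ Fin m) F) := by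
              rw [h1, one_mul]
          _ = (x⁻¹ : Matrix.symplecticGroup (Fin m) F).1 := by
              rw [mul_assoc, h3, mul_one]
    obtain ⟨h, hhM, hh⟩ := key _ hmem
    have : h = g := Units.ext hh
    rwa [← this]

end Cfsg.Agent.Lib.Geo.SpBase
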