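/-
Stabilisers of totally singular subspaces and of non-degenerate subspaces are maximal in `Sp`.
-/
import Cfsg.Agent.Lib.Geo.SpBase
set_option autoImplicit false

namespace Cfsg.Agent.Lib.Geo.SpSubspace

open Cfsg Cfsg.Geo Cfsg.Agent.Lib.Geo.Basic Cfsg.Agent.Lib.Geo.Parabolic Cfsg.Agent.Lib.Geo.Centres
open Cfsg.Agent.Lib.Geo.Polar Cfsg.Agent.Lib.Geo.QForm Cfsg.Agent.Lib.Geo.SympInSL
open Cfsg.Agent.Lib.Geo.SpBase
open scoped MatrixGroups Matrix

variable {ι : Type} [Fintype ι] [DecidableEq ι] {F : Type*} [Field F]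
variable {f : (ι → F) → (ι → F) → F} {hf : IsSymplecticForm f} {I : Subgroup (GL ι F)}

theorem singular_inf_lt (S : IsSpGroup hf I) (W : Submodule F (ι → F)) (hW0 : W ≠ ⊥)
    (hW : IsTotallySingularFor f W) : subspaceStabilizer W ⊓ I < I := by
  refine lt_of_le_of_ne inf_le_right ?_
  intro he
  obtain ⟨w, hw, hw0⟩ := Submodule.exists_mem_ne_zero_of_ne_bot hW0
  obtain ⟨v, hv⟩ := (hf.nondegenerate w hw0).2
  have hT : sympT hf v 1 ∈ subspaceStabilizer W ⊓ I := by
    rw [he]
    exact (S.mem_iff _).mpr (sympT_preserves hf v 1)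
  have h1 := (mem_subspaceStabilizer_iff_forall_mem W _).mp hT.1 w hw
  rw [sympT_mulVec, one_smul] at h1
  have h2 : f w v • v ∈ W := by
    have := W.sub_mem h1 hw
    rwa [add_sub_cancel_left] at this
  have h3 := W.smul_mem (f w v)⁻¹ h2
  rw [smul_smul, inv_mul_cancel₀ hv, one_smul] at h3
  exact hv (hW w hw v h3)

/-- **The stabiliser of a totally singular subspace is maximal in `Sp`.** -/
theorem singular_isMaximalIn [Finite F] (S : IsSpGroup hf I) (W : Submodule F (ι → F)) (hW0 : W ≠ ⊥)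
    (hW : IsTotallySingularFor f W) : IsMaximalIn I (subspaceStabilizer W ⊓ I) := by
  refine isMaximalIn_of_forall (singular_inf_lt S W hW0 hW) ?_
  intro M hHM hMI g hgM hgH
  have hpres : ∀ h ∈ M, ∀ u v, f ((h : Matrix ι ι F) *ᵥ u) ((h : Matrix ι ι F) *ᵥ v) = f u v :=
    fun h hh => (S.mem_iff h).mp (hMI hh)
  have hg : g ∉ subspaceStabilizer W := fun hs => hgH ⟨hs, hMI hgM⟩
  obtain ⟨x, hxW, hgx⟩ := exists_mem_not_mem_of_not_mem_subspaceStabilizer W g hg
  obtain ⟨z, hzW, hxz⟩ := exists_orth hf W _ hgx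
  -- the orthogonal complement consists of centres
  have hperp : ∀ z ∈ orth hf W, z ∈ centres hf M := by
    intro z hz a
    apply hHM
    refine ⟨(mem_subspaceStabilizer_iff_forall_mem W _).mpr ?_, (S.mem_iff _).mpr (sympT_preserves hf z a)⟩
    intro v hv
    rw [sympT_mulVec, hz v hv, zero_smul, add_zero]
    exact hv
  set y₀ := ((g⁻¹ : GL ι F) : Matrix ι ι F) *ᵥ z with hy₀
  have hy₀C : y₀ ∈ centres hf M :=
    centres_mulVec hf (hperp z hzW) (M.inv_mem hgM) (inv_preserves g (hpres g hgM))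
  have hy₀x : f x y₀ ≠ 0 := by
    rw [hy₀, form_inv' hf g (hpres g hgM), hxz]
    exact one_ne_zero
  -- translations by the complement
  have htrans : ∀ y ∈ centres hf M, (∃ w ∈ W, f w y ≠ 0) → ∀ z ∈ orth hf W, y + z ∈ centres hf M := by
    intro y hyC hy z hz
    obtain ⟨w, hw, hwy⟩ := hy
    by_cases hyz : f y z = 0
    · have h1 : y ∉ W := fun h => hwy (hW w hw y h)
      have h2 : y + z ∉ W := fun h => by
        have := hW w hw _ h
        rw [hf.bilinear.add_right, hz w hw, add_zero] at this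
        exact hwy this
      obtain ⟨e₁, he₁, h3⟩ := exists_orth hf W _ h1
      obtain ⟨e₂, he₂, h4⟩ := exists_orth hf W _ h2
      obtain ⟨u, hu, h5, h6⟩ := exists_common hf (orth hf W) y (y + z)
        ⟨e₁, he₁, by rw [h3]; exact one_ne_zero⟩ ⟨e₂, he₂, by rw [h4]; exact one_ne_zero⟩
      have h7 : y + u ∈ centres hf M := centres_add hf (hperp u hu) hyC h5
      have h8 : z - u ∈ orth hf W := (orth hf W).sub_mem hz hu
      have h9 := centres_add hf (hperp _ h8) h7 (by
        have P := isPolar hf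
        have h10 : f (y + u) (z - u) = - f (y + z) u := by
          rw [P.sub_right, hf.bilinear.add_left, hf.bilinear.add_left, hf.bilinear.add_left, hyz,
            hf.alternating, hf.skew u z]
          ring
        rw [h10]
        exact neg_ne_zero.mpr h6)
      have h12 : y + u + (z - u) = y + z := by abel
      rwa [h12] at h9
    · exact centres_add hf (hperp z hz) hyC hyz
  -- vectors outside the complement
  have hout : ∀ y, (∃ w ∈ W, f w y ≠ 0) → y ∈ centres hf M := by
    intro y' hy'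
    obtain ⟨w', hw', hw'y⟩ := hy'
    obtain ⟨p, hp, hp₀, hp'⟩ := exists_common hf W y₀ y' ⟨x, hxW, form_comm_ne hf hy₀x⟩
      ⟨w', hw', form_comm_ne hf hw'y⟩
    set d := f y₀ p with hd
    set l := d / f y' p with hl
    have hl0 : l ≠ 0 := div_ne_zero hp₀ hp'
    set y'' := l • y' with hy''
    have hy''p : f y'' p = d := by
      rw [hy'', hf.bilinear.smul_left, hl]
      field_simp
    set q := d⁻¹ • (y'' - y₀) with hq
    have hqp : f q p = 0 := by
      rw [hq, hf.bilinear.smul_left, (isPolar hf).sub_left, hy''p, ← hd, sub_self, mul_zero]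
    have hpq : f p q = 0 := form_comm_eq hf hqp
    have hE : sE hf p q hpq ∈ M := by
      apply hHM
      refine ⟨(mem_subspaceStabilizer_iff_forall_mem W _).mpr ?_, (S.mem_iff _).mpr (sE_preserves hf p q hpq)⟩
      intro v hv
      rw [sE_mulVec, hW v hv p hp, zero_smul, add_zero]
      exact W.add_mem hv (W.smul_mem _ hp)
    have h1 := centres_mulVec hf hy₀C hE (sE_preserves hf p q hpq)
    rw [sE_mulVec] at h1
    have h2 : y₀ + f y₀ p • q = y'' := by
      rw [hq, ← hd, smul_smul, mul_inv_cancel₀ hp₀, one_smul]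
      abel
    rw [h2] at h1
    have he : f y₀ q • p ∈ orth hf W := by
      intro w hw
      rw [hf.bilinear.smul_right, hW w hw p hp, mul_zero]
    have h3 := htrans _ h1 ⟨w', hw', by
      rw [hf.bilinear.add_right, he w' hw', add_zero, hy'', hf.bilinear.smul_right]
      exact mul_ne_zero hl0 hw'y⟩ _ ((orth hf W).neg_mem he)
    rw [add_neg_cancel_right] at h3
    have h4 := centres_smul hf h3 l⁻¹
    rwa [hy'', smul_smul, inv_mul_cancel₀ hl0, one_smul] at h4
  refine S.gen M (fun v a => ?_)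
  by_cases hv : v ∈ orth hf W
  · exact hperp v hv a
  · have : ∃ w ∈ W, f w v ≠ 0 := by
      by_contra hcon
      push Not at hcon
      exact hv hcon
    exact hout v this a

/-- The double orthogonal complement. -/
theorem mem_of_orth_orth [Finite F] (hf : IsSymplecticForm f) (W : Submodule F (ι → F)) (z : ι → F)
    (h : ∀ e ∈ orth hf W, f z e = 0) : z ∈ W := by
  by_contra hz
  obtain ⟨e, he, h1⟩ := exists_orth hf W z hz
  rw [h e he] at h1
  exact zero_ne_one h1

theorem eq_zero_of_mem_of_mem_orth (hf : IsSymplecticForm f) {W : Submodule F (ι → F)}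
    (hW : IsNondegenerateOn f W) {z : ι → F} (h1 : z ∈ W) (h2 : z ∈ orth hf W) : z = 0 := by
  by_contra h0
  obtain ⟨⟨x, hx, hxz⟩, -⟩ := hW z h1 h0
  exact hxz (h2 x hx)

theorem sup_orth [Finite F] (hf : IsSymplecticForm f) {W : Submodule F (ι → F)}
    (hW : IsNondegenerateOn f W) : W ⊔ orth hf W = ⊤ := by
  rw [eq_top_iff]
  intro x _
  by_contra hx
  obtain ⟨z, hz, h1⟩ := exists_orth hf _ x hx
  have h2 : z ∈ W := mem_of_orth_orth hf W z (fun e he =>
    form_comm_eq hf (hz e (Submodule.mem_sup_right he)))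
  have h3 : z ∈ orth hf W := fun w hw => hz w (Submodule.mem_sup_left hw)
  have h4 := eq_zero_of_mem_of_mem_orth hf hW h2 h3
  rw [h4, (isPolar hf).zero_right] at h1
  exact zero_ne_one h1

theorem exists_decomp [Finite F] (hf : IsSymplecticForm f) {W : Submodule F (ι → F)}
    (hW : IsNondegenerateOn f W) (x : ι → F) : ∃ a ∈ W, ∃ b ∈ orth hf W, a + b = x := by
  have : x ∈ W ⊔ orth hf W := by
    rw [sup_orth hf hW]
    trivial
  exact Submodule.mem_sup.mp this

theorem finrank_add_orth [Finite F] (hf : IsSymplecticForm f) {W : Submodule F (ι → F)}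
    (hW : IsNondegenerateOn f W) :
    Module.finrank F W + Module.finrank F (orth hf W) = Fintype.card ι := by
  have hc : IsCompl W (orth hf W) := by
    refine ⟨?_, codisjoint_iff.mpr (sup_orth hf hW)⟩
    rw [Submodule.disjoint_def]
    intro z h1 h2
    exact eq_zero_of_mem_of_mem_orth hf hW h1 h2
  have := Submodule.finrank_add_eq_of_isCompl hc
  simpa using this

/-- The complement of a non-degenerate subspace is non-degenerate. -/
theorem isNondegenerateOn_orth [Finite F] (hf : IsSymplecticForm f) {W : Submodule F (ι → F)}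
    (hW : IsNondegenerateOn f W) : IsNondegenerateOn f (orth hf W) := by
  intro y hy hy0
  have hyW : y ∉ W := fun h => hy0 (eq_zero_of_mem_of_mem_orth hf hW h hy)
  obtain ⟨z, hz, h1⟩ := exists_orth hf W y hyW
  have h2 : f y z ≠ 0 := by rw [h1]; exact one_ne_zero
  exact ⟨⟨z, hz, form_comm_ne hf h2⟩, ⟨z, hz, h2⟩⟩

/-- One move inside a non-degenerate subspace all of whose vectors are centres. -/
theorem move_one (hf : IsSymplecticForm f) {M : Subgroup (GL ι F)} {E : Submodule F (ι → F)}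
    (hE : ∀ v ∈ E, v ∈ centres hf M) {u u' r : ι → F} (hu : u ∈ E) (hu' : u' ∈ E)
    (hr : ∀ v ∈ E, f r v = 0) (huu' : f u u' ≠ 0) (h : u + r ∈ centres hf M) :
    u' + r ∈ centres hf M := by
  have P := isPolar hf
  have hd : u' - u ∈ E := E.sub_mem hu' hu
  have hT := hE _ hd (f u u')⁻¹
  have h1 := centres_mulVec hf h hT (sympT_preserves hf _ _)
  rw [sympT_mulVec, hf.bilinear.add_left, hr _ hd, add_zero, P.sub_right, hf.alternating, sub_zero,
    smul_smul, mul_inv_cancel₀ huu', one_smul] at h1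
  have h2 : u + r + (u' - u) = u' + r := by abel
  rwa [h2] at h1

/-- Moving a component to any other non-zero vector of a non-degenerate subspace. -/
theorem move_two (hf : IsSymplecticForm f) {M : Subgroup (GL ι F)} {E : Submodule F (ι → F)}
    (hEn : IsNondegenerateOn f E)
    (hE : ∀ v ∈ E, v ∈ centres hf M) {u u' r : ι → F} (hu : u ∈ E) (hu' : u' ∈ E) (hu0 : u ≠ 0)
    (hu'0 : u' ≠ 0) (hr : ∀ v ∈ E, f r v = 0) (h : u + r ∈ centres hf M) :
    u' + r ∈ centres hf M := by
  obtain ⟨d, hd, h1, h2⟩ := exists_common hf E u u' (by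
    obtain ⟨-, ⟨x, hx, hux⟩⟩ := hEn u hu hu0
    exact ⟨x, hx, hux⟩) (by
    obtain ⟨-, ⟨x, hx, hux⟩⟩ := hEn u' hu' hu'0
    exact ⟨x, hx, hux⟩)
  exact move_one hf hE hd hu' hr (form_comm_ne hf h2) (move_one hf hE hu hd hr h1 h)

theorem nondeg_inf_lt [Finite F] (S : IsSpGroup hf I) (W : Submodule F (ι → F)) (hW0 : W ≠ ⊥)
    (hW : IsNondegenerateOn f W) (hdim : 2 * Module.finrank F W < Fintype.card ι) :
    subspaceStabilizer W ⊓ I < I := by
  refine lt_of_le_of_ne inf_le_right ?_
  intro he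
  obtain ⟨a, ha, ha0⟩ := Submodule.exists_mem_ne_zero_of_ne_bot hW0
  have h0 := finrank_add_orth hf hW
  have hO0 : orth hf W ≠ ⊥ := by
    intro h
    rw [h] at h0
    simp at h0
    omega
  obtain ⟨b, hb, hb0⟩ := Submodule.exists_mem_ne_zero_of_ne_bot hO0
  obtain ⟨⟨x, hx, hxa⟩, -⟩ := hW a ha ha0
  have hT : sympT hf (a + b) 1 ∈ subspaceStabilizer W ⊓ I := by
    rw [he]
    exact (S.mem_iff _).mpr (sympT_preserves hf _ 1)
  have h1 := (mem_subspaceStabilizer_iff_forall_mem W _).mp hT.1 x hx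
  rw [sympT_mulVec, one_smul, hf.bilinear.add_right, hb x hx, add_zero] at h1
  have h2 : f x a • (a + b) ∈ W := by
    have := W.sub_mem h1 hx
    rwa [add_sub_cancel_left] at this
  have h3 := W.smul_mem (f x a)⁻¹ h2
  rw [smul_smul, inv_mul_cancel₀ hxa, one_smul] at h3
  have h4 : b ∈ W := by
    have := W.sub_mem h3 ha
    rwa [add_sub_cancel_left] at this
  exact hb0 (eq_zero_of_mem_of_mem_orth hf hW h4 hb)

/-- **The stabiliser of a non-degenerate subspace of dimension less than half the dimension is maximal in `Sp`.** -/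
theorem nondeg_isMaximalIn [Finite F] (S : IsSpGroup hf I) (W : Submodule F (ι → F)) (hW0 : W ≠ ⊥)
    (hW : IsNondegenerateOn f W) (hdim : 2 * Module.finrank F W < Fintype.card ι) :
    IsMaximalIn I (subspaceStabilizer W ⊓ I) := by
  refine isMaximalIn_of_forall (nondeg_inf_lt S W hW0 hW hdim) ?_
  intro M hHM hMI g hgM hgH
  have hpres : ∀ h ∈ M, ∀ u v, f ((h : Matrix ι ι F) *ᵥ u) ((h : Matrix ι ι F) *ᵥ v) = f u v :=
    fun h hh => (S.mem_iff h).mp (hMI hh)
  have hg : g ∉ subspaceStabilizer W := fun hs => hgH ⟨hs, hMI hgM⟩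
  have h0 := finrank_add_orth hf hW
  have hO := isNondegenerateOn_orth hf hW
  have hcW : ∀ z ∈ W, z ∈ centres hf M := by
    intro z hz a
    apply hHM
    refine ⟨(mem_subspaceStabilizer_iff_forall_mem W _).mpr ?_, (S.mem_iff _).mpr (sympT_preserves hf z a)⟩
    intro v hv
    rw [sympT_mulVec]
    exact W.add_mem hv (W.smul_mem _ (W.smul_mem _ hz))
  have hcO : ∀ z ∈ orth hf W, z ∈ centres hf M := by
    intro z hz a
    apply hHM
    refine ⟨(mem_subspaceStabilizer_iff_forall_mem W _).mpr ?_, (S.mem_iff _).mpr (sympT_preserves hf z a)⟩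
    intro v hv
    rw [sympT_mulVec, hz v hv, zero_smul, add_zero]
    exact hv
  -- a vector of the complement moved outside both
  obtain ⟨z, hz, hz1, hz2⟩ : ∃ z ∈ orth hf W, (g : Matrix ι ι F) *ᵥ z ∉ W ∧
      (g : Matrix ι ι F) *ᵥ z ∉ orth hf W := by
    by_contra hcon
    push Not at hcon
    have hcase : (∀ z ∈ orth hf W, (g : Matrix ι ι F) *ᵥ z ∈ W) ∨
        (∀ z ∈ orth hf W, (g : Matrix ι ι F) *ᵥ z ∈ orth hf W) := by
      by_contra hc
      push Not at hc
      obtain ⟨⟨z₁, hz₁, h1⟩, ⟨z₂, hz₂, h2⟩⟩ := hc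
      have h1' := hcon z₁ hz₁ h1
      have h2' : (g : Matrix ι ι F) *ᵥ z₂ ∈ W := by
        by_contra h3
        exact h2 (hcon z₂ hz₂ h3)
      by_cases h3 : (g : Matrix ι ι F) *ᵥ (z₁ + z₂) ∈ W
      · apply h1
        rw [Matrix.mulVec_add] at h3
        have := W.sub_mem h3 h2'
        rwa [add_sub_cancel_right] at this
      · have h4 := hcon _ ((orth hf W).add_mem hz₁ hz₂) h3
        apply h2
        rw [Matrix.mulVec_add] at h4
        have := (orth hf W).sub_mem h4 h1'
        rwa [add_sub_cancel_left] at this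
    rcases hcase with h | h
    · have h1 : (orth hf W).map (Matrix.toLin' (g : Matrix ι ι F)) ≤ W := by
        rintro _ ⟨z, hz, rfl⟩
        exact h z hz
      have h2 := Submodule.finrank_mono h1
      rw [finrank_map_toLin'] at h2
      omega
    · have h1 : g ∈ subspaceStabilizer (orth hf W) :=
        (mem_subspaceStabilizer_iff_forall_mem _ _).mpr h
      apply hg
      refine (mem_subspaceStabilizer_iff_forall_mem _ _).mpr ?_
      intro w hw
      apply mem_of_orth_orth hf W
      intro e he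
      have h3 : ((g⁻¹ : GL ι F) : Matrix ι ι F) *ᵥ e ∈ orth hf W :=
        ((mem_subspaceStabilizer_iff (orth hf W) g).mp h1 _).mpr (by
          rw [mulVec_inv_mulVec]
          exact he)
      rw [← form_inv' hf g (hpres g hgM)]
      exact h3 w hw
  have hyC : (g : Matrix ι ι F) *ᵥ z ∈ centres hf M :=
    centres_mulVec hf (hcO z hz) hgM (hpres g hgM)
  obtain ⟨a₀, ha₀, b₀, hb₀, hab₀⟩ := exists_decomp hf hW ((g : Matrix ι ι F) *ᵥ z)
  have ha₀0 : a₀ ≠ 0 := by
    rintro rfl
    rw [zero_add] at hab₀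
    exact hz2 (hab₀ ▸ hb₀)
  have hb₀0 : b₀ ≠ 0 := by
    rintro rfl
    rw [add_zero] at hab₀
    exact hz1 (hab₀ ▸ ha₀)
  -- everything
  refine S.gen M (fun v c => ?_)
  obtain ⟨a, ha, b, hb, rfl⟩ := exists_decomp hf hW v
  by_cases ha0 : a = 0
  · rw [ha0, zero_add]
    exact hcO b hb c
  by_cases hb0 : b = 0
  · rw [hb0, add_zero]
    exact hcW a ha c
  have h1 : a + b₀ ∈ centres hf M := move_two hf hW hcW ha₀ ha ha₀0 ha0
    (fun v hv => form_comm_eq hf (hb₀ v hv)) (hab₀ ▸ hyC)
  have h2 : b₀ + a ∈ centres hf M := by rwa [add_comm]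
  have h3 : b + a ∈ centres hf M := move_two hf hO hcO hb₀ hb hb₀0 hb0
    (fun v hv => hv a ha) h2
  have h4 : a + b ∈ centres hf M := by rwa [add_comm]
  exact h4 c

end Cfsg.Agent.Lib.Geo.SpSubspace
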