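/-
Symplectic frames of non-degenerate subspaces, and Witt's theorem for abstract alternating forms on `F^ι`.
-/
import Cfsg.Agent.Lib.Geo.SpSubspace
import Cfsg.Agent.Lib.Classical.Alt
set_option autoImplicit false

namespace Cfsg.Agent.Lib.Geo.SpFrames

open Cfsg Cfsg.Geo Cfsg.Agent.Lib.Geo.Basic Cfsg.Agent.Lib.Geo.Parabolic Cfsg.Agent.Lib.Geo.Centres
open Cfsg.Agent.Lib.Geo.Polar Cfsg.Agent.Lib.Geo.QForm Cfsg.Agent.Lib.Geo.SympInSL
open Cfsg.Agent.Lib.Geo.SpBase Cfsg.Agent.Lib.Geo.SpSubspace
open scoped MatrixGroups Matrix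

variable {ι : Type} [Fintype ι] [DecidableEq ι] {F : Type*} [Field F]
variable {f : (ι → F) → (ι → F) → F}

/-- The bilinear form attached to a symplectic form. -/
noncomputable def bilinOf (hf : IsSymplecticForm f) : LinearMap.BilinForm F (ι → F) :=
  LinearMap.mk₂ F f hf.bilinear.add_left (fun c a b => hf.bilinear.smul_left c a b)
    hf.bilinear.add_right (fun c a b => hf.bilinear.smul_right c a b)

@[simp] theorem bilinOf_apply (hf : IsSymplecticForm f) (x y : ι → F) : bilinOf hf x y = f x y := rfl

theorem bilinOf_isAlt (hf : IsSymplecticForm f) : (bilinOf hf).IsAlt := fun x => hf.alternating x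

theorem bilinOf_nondegenerate (hf : IsSymplecticForm f) : (bilinOf hf).Nondegenerate := by
  have hL : LinearMap.SeparatingLeft (bilinOf hf) := by
    intro x hx
    by_contra h0
    obtain ⟨-, ⟨y, hy⟩⟩ := hf.nondegenerate x h0
    exact hy (hx y)
  exact (LinearMap.IsRefl.nondegenerate_iff_separatingLeft (bilinOf_isAlt hf).isRefl).2 hL

/-- **Witt's theorem** for families: an isometry between linearly independent families extends to an
element of `GL`. -/
theorem exists_isometry_family (hf : IsSymplecticForm f) {κ : Type*} [Finite κ] (u u' : κ → ι → F)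
    (hu : LinearIndependent F u) (hu' : LinearIndependent F u')
    (hgram : ∀ i j, f (u i) (u j) = f (u' i) (u' j)) :
    ∃ g : GL ι F, (∀ x y, f ((g : Matrix ι ι F) *ᵥ x) ((g : Matrix ι ι F) *ᵥ y) = f x y) ∧
      ∀ i, (g : Matrix ι ι F) *ᵥ u i = u' i := by
  obtain ⟨g, hg, hgu⟩ := Cfsg.Agent.Lib.Classical.Alt.witt_family (bilinOf_nondegenerate hf)
    (bilinOf_isAlt hf) u u' hu hu' hgram
  have hiso := Cfsg.Agent.Lib.Classical.Alt.tGroup_le_isomGroup (bilinOf_isAlt hf) hg
  refine ⟨Cfsg.Agent.Lib.Classical.MatrixBridge.glToLin.symm g, ?_, ?_⟩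
  · intro x y
    rw [Cfsg.Agent.Lib.Classical.MatrixBridge.glToLin_symm_mulVec,
      Cfsg.Agent.Lib.Classical.MatrixBridge.glToLin_symm_mulVec]
    exact hiso x y
  · intro i
    rw [Cfsg.Agent.Lib.Classical.MatrixBridge.glToLin_symm_mulVec]
    exact hgu i

/-- Sums on the left of the form. -/
theorem form_sum_left (hf : IsSymplecticForm f) {κ : Type*} (s : Finset κ) (c : κ → ι → F) (v : ι → F) :
    f (∑ i ∈ s, c i) v = ∑ i ∈ s, f (c i) v := by
  classical
  induction s using Finset.induction_on with
  | empty =>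
    simpa using (isPolar hf).zero_left v
  | insert a s ha ih => rw [Finset.sum_insert ha, Finset.sum_insert ha, hf.bilinear.add_left, ih]

/-- Sums on the right of the form. -/
theorem form_sum_right (hf : IsSymplecticForm f) {κ : Type*} (s : Finset κ) (c : κ → ι → F) (v : ι → F) :
    f v (∑ i ∈ s, c i) = ∑ i ∈ s, f v (c i) := by
  classical
  induction s using Finset.induction_on with
  | empty =>
    simpa using (isPolar hf).zero_right v
  | insert a s ha ih => rw [Finset.sum_insert ha, Finset.sum_insert ha, hf.bilinear.add_right, ih]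

/-- Independence from a dual family. -/
theorem linearIndependent_of_dual (hf : IsSymplecticForm f) {κ : Type*} [Finite κ] [DecidableEq κ]
    (u w : κ → ι → F) (h : ∀ x y, f (u x) (w y) = if x = y then 1 else 0) :
    LinearIndependent F u := by
  have := Fintype.ofFinite κ
  rw [Fintype.linearIndependent_iff]
  intro g hg y
  have h1 := congrArg (fun z => f z (w y)) hg
  simp only [form_sum_left hf, hf.bilinear.smul_left, h, (isPolar hf).zero_left] at h1
  simpa using h1

/-- Frames of non-degenerate subspaces. -/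
theorem exists_frame_aux [Finite F] (hf : IsSymplecticForm f) : ∀ (d : ℕ) (E : Submodule F (ι → F)),
    Module.finrank F E = d → IsNondegenerateOn f E →
    ∃ (n : ℕ) (e e' : Fin n → ι → F), (∀ a, e a ∈ E) ∧ (∀ a, e' a ∈ E) ∧
      (∀ a b, f (e a) (e b) = 0) ∧ (∀ a b, f (e' a) (e' b) = 0) ∧
      (∀ a b, f (e a) (e' b) = if a = b then 1 else 0) ∧
      E ≤ Submodule.span F (Set.range e ∪ Set.range e') := by
  intro d
  induction d using Nat.strong_induction_on with
  | _ d ih =>
    intro E hd hE
    by_cases hE0 : E = ⊥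
    · subst hE0
      exact ⟨0, Fin.elim0, Fin.elim0, fun a => a.elim0, fun a => a.elim0, fun a => a.elim0,
        fun a => a.elim0, fun a => a.elim0, bot_le⟩
    obtain ⟨a, ha, ha0⟩ := Submodule.exists_mem_ne_zero_of_ne_bot hE0
    obtain ⟨-, ⟨b₀, hb₀, hab₀⟩⟩ := hE a ha ha0
    set b := (f a b₀)⁻¹ • b₀ with hb
    have hbE : b ∈ E := E.smul_mem _ hb₀
    have hab : f a b = 1 := by rw [hb, hf.bilinear.smul_right, inv_mul_cancel₀ hab₀]
    have hba : f b a = -1 := by rw [hf.skew, hab]
    -- the complement
    let E' : Submodule F (ι → F) :=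
      { carrier := {x | x ∈ E ∧ f a x = 0 ∧ f b x = 0}
        add_mem' := fun {x y} hx hy => ⟨E.add_mem hx.1 hy.1, by
          rw [hf.bilinear.add_right, hx.2.1, hy.2.1, add_zero], by
          rw [hf.bilinear.add_right, hx.2.2, hy.2.2, add_zero]⟩
        zero_mem' := ⟨E.zero_mem, (isPolar hf).zero_right _, (isPolar hf).zero_right _⟩
        smul_mem' := fun c x hx => ⟨E.smul_mem _ hx.1, by
          rw [hf.bilinear.smul_right, hx.2.1, mul_zero], by
          rw [hf.bilinear.smul_right, hx.2.2, mul_zero]⟩ }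
    have hE'mem : ∀ x, x ∈ E' ↔ x ∈ E ∧ f a x = 0 ∧ f b x = 0 := fun x => Iff.rfl
    have hproj : ∀ x, x ∈ E → x + f b x • a + (- f a x) • b ∈ E' := by
      intro x hx
      refine (hE'mem _).mpr ⟨E.add_mem (E.add_mem hx (E.smul_mem _ ha)) (E.smul_mem _ hbE), ?_, ?_⟩
      · rw [hf.bilinear.add_right, hf.bilinear.add_right, hf.bilinear.smul_right,
          hf.bilinear.smul_right, hab, hf.alternating]
        ring
      · rw [hf.bilinear.add_right, hf.bilinear.add_right, hf.bilinear.smul_right,
          hf.bilinear.smul_right, hba, hf.alternating]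
        ring
    have hE'nd : IsNondegenerateOn f E' := by
      intro x hx hx0
      have h1 := (hE'mem x).mp hx
      obtain ⟨-, ⟨y, hy, hxy⟩⟩ := hE x h1.1 hx0
      have h2 : f x (y + f b y • a + (- f a y) • b) ≠ 0 := by
        rw [hf.bilinear.add_right, hf.bilinear.add_right, hf.bilinear.smul_right,
          hf.bilinear.smul_right, hf.skew x a, hf.skew x b, h1.2.1, h1.2.2]
        simpa using hxy
      exact ⟨⟨_, hproj y hy, form_comm_ne hf h2⟩, ⟨_, hproj y hy, h2⟩⟩
    have hlt : E' < E := by
      refine lt_of_le_of_ne (fun x hx => ((hE'mem x).mp hx).1) ?_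
      intro he
      have h1 : a ∈ E' := by rw [he]; exact ha
      have h2 := ((hE'mem a).mp h1).2.2
      rw [hba] at h2
      exact neg_ne_zero.mpr one_ne_zero h2
    have hfin := Submodule.finrank_lt_finrank_of_lt hlt
    obtain ⟨n, e, e', he, he', h1, h2, h3, hspan⟩ := ih _ (hd ▸ hfin) E' rfl hE'nd
    have he1 := fun k => (hE'mem _).mp (he k)
    have he'1 := fun k => (hE'mem _).mp (he' k)
    refine ⟨n + 1, Fin.cons a e, Fin.cons b e', ?_, ?_, ?_, ?_, ?_, ?_⟩
    · intro k
      refine Fin.cases ?_ ?_ k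
      · simpa using ha
      · intro k
        simpa using (he1 k).1
    · intro k
      refine Fin.cases ?_ ?_ k
      · simpa using hbE
      · intro k
        simpa using (he'1 k).1
    · intro k l
      refine Fin.cases ?_ (fun k => ?_) k <;> refine Fin.cases ?_ (fun l => ?_) l
      · simpa using hf.alternating a
      · simpa using (he1 l).2.1
      · simpa using form_comm_eq hf (he1 k).2.1
      · simpa using h1 k l
    · intro k l
      refine Fin.cases ?_ (fun k => ?_) k <;> refine Fin.cases ?_ (fun l => ?_) l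
      · simpa using hf.alternating b
      · simpa using (he'1 l).2.2
      · simpa using form_comm_eq hf (he'1 k).2.2
      · simpa using h2 k l
    · intro k l
      refine Fin.cases ?_ (fun k => ?_) k <;> refine Fin.cases ?_ (fun l => ?_) l
      · simpa using hab
      · simpa [Fin.succ_ne_zero, (Fin.succ_ne_zero l).symm] using (he'1 l).2.1
      · simpa [Fin.succ_ne_zero, (Fin.succ_ne_zero k).symm] using form_comm_eq hf (he1 k).2.2
      · simpa [Fin.succ_inj] using h3 k l
    · intro x hx
      set U := Submodule.span F (Set.range (Fin.cons a e : Fin (n + 1) → ι → F) ∪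
        Set.range (Fin.cons b e' : Fin (n + 1) → ι → F)) with hU
      have ha' : a ∈ U := Submodule.subset_span (Or.inl ⟨0, by simp⟩)
      have hb' : b ∈ U := Submodule.subset_span (Or.inr ⟨0, by simp⟩)
      have hle : Submodule.span F (Set.range e ∪ Set.range e') ≤ U := by
        apply Submodule.span_mono
        rintro _ (⟨k, rfl⟩ | ⟨k, rfl⟩)
        · exact Or.inl ⟨k.succ, by simp⟩
        · exact Or.inr ⟨k.succ, by simp⟩
      have h4 := hle (hspan (hproj x hx))
      have h5 : x = (x + f b x • a + (- f a x) • b) - f b x • a - (- f a x) • b := by abel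
      rw [h5]
      exact U.sub_mem (U.sub_mem h4 (U.smul_mem _ ha')) (U.smul_mem _ hb')

/-- The frame as a single family and its dual. -/
theorem frame_dual (hf : IsSymplecticForm f) {n : ℕ} (e e' : Fin n → ι → F)
    (h1 : ∀ a b, f (e a) (e b) = 0) (h2 : ∀ a b, f (e' a) (e' b) = 0)
    (h3 : ∀ a b, f (e a) (e' b) = if a = b then 1 else 0) :
    LinearIndependent F (Sum.elim e e') := by
  apply linearIndependent_of_dual hf _ (Sum.elim e' (fun a => - e a))
  rintro (a | a) (b | b)
  · simpa using h3 a b
  · simp only [Sum.elim_inl, Sum.elim_inr, (isPolar hf).neg_right, h1, neg_zero]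
    simp
  · simp only [Sum.elim_inl, Sum.elim_inr, h2]
    simp
  · simp only [Sum.elim_inr, (isPolar hf).neg_right]
    rw [hf.skew, neg_neg, h3]
    by_cases hab : a = b
    · subst hab
      simp
    · simp [hab, Ne.symm hab]

/-- Frames of non-degenerate subspaces of dimension `2 n`. -/
theorem exists_frame [Finite F] (hf : IsSymplecticForm f) (E : Submodule F (ι → F))
    (hE : IsNondegenerateOn f E) :
    ∃ (n : ℕ) (e e' : Fin n → ι → F), Module.finrank F E = 2 * n ∧ (∀ a, e a ∈ E) ∧ (∀ a, e' a ∈ E) ∧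
      (∀ a b, f (e a) (e b) = 0) ∧ (∀ a b, f (e' a) (e' b) = 0) ∧
      (∀ a b, f (e a) (e' b) = if a = b then 1 else 0) ∧
      E ≤ Submodule.span F (Set.range e ∪ Set.range e') := by
  obtain ⟨n, e, e', he, he', h1, h2, h3, hspan⟩ := exists_frame_aux hf _ E rfl hE
  refine ⟨n, e, e', ?_, he, he', h1, h2, h3, hspan⟩
  have hind := frame_dual hf e e' h1 h2 h3
  have hr : Set.range (Sum.elim e e') = Set.range e ∪ Set.range e' := Set.Sum.elim_range e e'
  have hE' : E = Submodule.span F (Set.range (Sum.elim e e')) := by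
    apply le_antisymm
    · rw [hr]
      exact hspan
    · rw [Submodule.span_le, hr]
      rintro _ (⟨k, rfl⟩ | ⟨k, rfl⟩)
      · exact he k
      · exact he' k
  rw [hE', finrank_span_eq_card hind]
  simp [two_mul]

end Cfsg.Agent.Lib.Geo.SpFrames
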